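import Cfsg.Agent.LieClassical.SUBasic
import Cfsg.Agent.H415.C3.LKit
import Cfsg.Agent.H601.C3.DecDefs

/-!
# S1920, PSU: the linear lift of `PSU_n(q)` (helper601)

`exists_linU` : `V = F^n`, `|F| = q²`: `σ`, the adjoint `ad` of the standard hermitian form, `Gh = SU(V)`, `Lin Gh π`.
-/

set_option autoImplicit false

open Subgroup Module Matrix

namespace Cfsg.Agent.H601.C3

open Cfsg.Agent.H415.C3

section conj

variable {F : Type*} [Field F]

/-- the field automorphism of order 2 -/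
theorem exists_sigma [Finite F] {q : ℕ} (hF : Nat.card F = q ^ 2) : ∃ σ : F ≃+* F, ∀ c, σ c = c ^ q := by
  have := Fintype.ofFinite F
  obtain ⟨p, hp⟩ := CharP.exists F
  have hpr : p.Prime := CharP.char_is_prime F p
  have hfp : Fact p.Prime := ⟨hpr⟩
  obtain ⟨m, -, hm⟩ := FiniteField.card F p
  rw [Nat.card_eq_fintype_card, hm] at hF
  obtain ⟨k, -, hk⟩ := (Nat.dvd_prime_pow hpr).1 (show q ∣ p ^ (m : ℕ) by rw [hF]; exact Dvd.intro_left (q ^ 1) (by ring))
  have hexp : ExpChar F p := ExpChar.prime hpr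
  let f : F →+* F := iterateFrobenius F p k
  have hf : ∀ c, f c = c ^ q := fun c => by rw [hk]; rfl
  have hb : Function.Bijective f := Finite.injective_iff_bijective.1 f.injective
  exact ⟨RingEquiv.ofBijective f hb, fun c => hf c⟩

variable (σ : F ≃+* F) {n : ℕ}

/-- the adjoint for the standard hermitian form -/
noncomputable def adU (T : Module.End F (Fin n → F)) : Module.End F (Fin n → F) :=
  toLin' (hc σ (LinearMap.toMatrix' T))

theorem adU_toLin' (A : Matrix (Fin n) (Fin n) F) : adU σ (toLin' A) = toLin' (hc σ A) := by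
  rw [adU, LinearMap.toMatrix'_toLin']

theorem toLin'_mul' (A B : Matrix (Fin n) (Fin n) F) : (toLin' A * toLin' B : Module.End F (Fin n → F)) = toLin' (A * B) :=
  (toLin'_mul A B).symm

theorem star_adU (h2 : ∀ a, σ (σ a) = a) : Star σ (adU σ : Module.End F (Fin n → F) → Module.End F (Fin n → F)) where
  add X Y := by
    obtain ⟨A, rfl⟩ := toLin'.surjective X
    obtain ⟨B, rfl⟩ := toLin'.surjective Y
    rw [← map_add, adU_toLin', adU_toLin', adU_toLin', ← map_add]
    congr 1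
    ext i j
    change σ (A j i + B j i) = σ (A j i) + σ (B j i)
    rw [map_add]
  smul c X := by
    obtain ⟨A, rfl⟩ := toLin'.surjective X
    rw [← map_smul, adU_toLin', adU_toLin', ← map_smul]
    congr 1
    ext i j
    change σ (c * A j i) = σ c * σ (A j i)
    rw [map_mul]
  mul X Y := by
    obtain ⟨A, rfl⟩ := toLin'.surjective X
    obtain ⟨B, rfl⟩ := toLin'.surjective Y
    rw [toLin'_mul', adU_toLin', adU_toLin', adU_toLin', toLin'_mul']
    congr 1
    have h : (A * B).map σ = A.map σ * B.map σ := Matrix.map_mul (f := (σ : F →+* F))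
    rw [hc, h, transpose_mul]
    rfl
  inv X := by
    obtain ⟨A, rfl⟩ := toLin'.surjective X
    rw [adU_toLin', adU_toLin']
    congr 1
    ext i j
    change σ (σ (A i j)) = A i j
    rw [h2]

theorem det_adU (T : Module.End F (Fin n → F)) : LinearMap.det (adU σ T) = σ (LinearMap.det T) := by
  obtain ⟨A, rfl⟩ := toLin'.surjective T
  rw [adU_toLin', LinearMap.det_toLin', LinearMap.det_toLin', hc, det_transpose]
  exact (RingEquiv.map_det σ A).symm

/-- `SU(V)` -/
noncomputable def suV (h2 : ∀ a, σ (σ a) = a) (n : ℕ) : Subgroup ((Fin n → F) ≃ₗ[F] (Fin n → F)) where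
  carrier := {g | (g : (Fin n → F) →ₗ[F] (Fin n → F)) * adU σ (g : (Fin n → F) →ₗ[F] (Fin n → F)) = 1 ∧
    LinearMap.det (g : (Fin n → F) →ₗ[F] (Fin n → F)) = 1}
  mul_mem' {a b} ha hb := by
    have e1 : ((a * b : (Fin n → F) ≃ₗ[F] (Fin n → F)) : (Fin n → F) →ₗ[F] (Fin n → F)) =
        ((a : (Fin n → F) →ₗ[F] (Fin n → F)) * (b : (Fin n → F) →ₗ[F] (Fin n → F)) : Module.End F (Fin n → F)) := rfl
    refine ⟨?_, ?_⟩
    · rw [e1, (star_adU σ h2).mul, mul_assoc, ← mul_assoc (b : (Fin n → F) →ₗ[F] (Fin n → F)), hb.1, one_mul, ha.1]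
    · rw [e1, map_mul, ha.2, hb.2, one_mul]
  one_mem' := by
    have e1 : ((1 : (Fin n → F) ≃ₗ[F] (Fin n → F)) : (Fin n → F) →ₗ[F] (Fin n → F)) = (1 : Module.End F (Fin n → F)) := rfl
    have e2 : adU σ (1 : Module.End F (Fin n → F)) = 1 := by
      have h3 : adU σ (1 : Module.End F (Fin n → F)) * adU σ (adU σ 1) = adU σ (adU σ 1) := by
        rw [← (star_adU σ h2).mul, mul_one]
      rw [(star_adU σ h2).inv, mul_one] at h3
      exact h3
    refine ⟨?_, ?_⟩
    · rw [e1, e2, mul_one]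
    · rw [e1, map_one]
  inv_mem' {a} ha := by
    have e1 : (((a⁻¹ : (Fin n → F) ≃ₗ[F] (Fin n → F)) : (Fin n → F) →ₗ[F] (Fin n → F)) *
        (a : (Fin n → F) →ₗ[F] (Fin n → F)) : Module.End F (Fin n → F)) = 1 := LinearMap.ext fun v => a.symm_apply_apply v
    have e2 : ((a⁻¹ : (Fin n → F) ≃ₗ[F] (Fin n → F)) : (Fin n → F) →ₗ[F] (Fin n → F)) =
        adU σ (a : (Fin n → F) →ₗ[F] (Fin n → F)) := by
      calc ((a⁻¹ : (Fin n → F) ≃ₗ[F] (Fin n → F)) : (Fin n → F) →ₗ[F] (Fin n → F))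
          = (((a⁻¹ : (Fin n → F) ≃ₗ[F] (Fin n → F)) : (Fin n → F) →ₗ[F] (Fin n → F)) *
            ((a : (Fin n → F) →ₗ[F] (Fin n → F)) * adU σ (a : (Fin n → F) →ₗ[F] (Fin n → F))) :
              Module.End F (Fin n → F)) := by rw [ha.1, mul_one]
        _ = adU σ (a : (Fin n → F) →ₗ[F] (Fin n → F)) := by rw [← mul_assoc, e1, one_mul]
    refine ⟨?_, ?_⟩
    · rw [e2, (star_adU σ h2).inv, ← e2, e1]
    · have h3 := congrArg (fun T : Module.End F (Fin n → F) => LinearMap.det T) e1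
      simp only [map_mul, map_one, ha.2, mul_one] at h3
      exact h3

theorem mem_suV {h2 : ∀ a, σ (σ a) = a} {g : (Fin n → F) ≃ₗ[F] (Fin n → F)} :
    g ∈ suV σ h2 n ↔ ((g : (Fin n → F) →ₗ[F] (Fin n → F)) * adU σ (g : (Fin n → F) →ₗ[F] (Fin n → F)) = 1 ∧
      LinearMap.det (g : (Fin n → F) →ₗ[F] (Fin n → F)) = 1) := Iff.rfl

/-- `SU` in matrices -/
theorem mem_SU_hc {q : ℕ} (hσ : ∀ c, σ c = c ^ q) (A : SpecialLinearGroup (Fin n) F) :
    A ∈ Cfsg.SU n F q ↔ hc σ (A : Matrix (Fin n) (Fin n) F) * (A : Matrix (Fin n) (Fin n) F) = 1 := by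
  rw [Cfsg.Agent.LieClassical.SUBasic.mem_SU_iff]
  have hform : ∀ u v : Fin n → F, Cfsg.hermForm n F q u v = u ⬝ᵥ (fun i => σ (v i)) := fun u v => by
    rw [Cfsg.Agent.LieClassical.SUBasic.hermForm_apply]
    exact Finset.sum_congr rfl fun i _ => congrArg (fun t => u i * t) (hσ (v i)).symm
  have hsv : ∀ v : Fin n → F, (fun i => σ (((A : Matrix (Fin n) (Fin n) F) *ᵥ v) i)) =
      (A : Matrix (Fin n) (Fin n) F).map σ *ᵥ (fun i => σ (v i)) := fun v => by
    funext i
    rw [mulVec, dotProduct, map_sum, mulVec, dotProduct]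
    exact Finset.sum_congr rfl fun j _ => map_mul σ _ _
  have hkey : ∀ u v : Fin n → F, Cfsg.hermForm n F q ((A : Matrix (Fin n) (Fin n) F) *ᵥ u)
      ((A : Matrix (Fin n) (Fin n) F) *ᵥ v) =
      u ⬝ᵥ (((A : Matrix (Fin n) (Fin n) F)ᵀ * (A : Matrix (Fin n) (Fin n) F).map σ) *ᵥ (fun i => σ (v i))) := by
    intro u v
    rw [hform, hsv, ← mulVec_mulVec, dotProduct_mulVec u, vecMul_transpose]
  have hT : hc σ (A : Matrix (Fin n) (Fin n) F) * (A : Matrix (Fin n) (Fin n) F) =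
      ((A : Matrix (Fin n) (Fin n) F)ᵀ * (A : Matrix (Fin n) (Fin n) F).map σ)ᵀ := by
    rw [transpose_mul, transpose_transpose]
    rfl
  rw [hT]
  constructor
  · intro h
    have h3 : ((A : Matrix (Fin n) (Fin n) F)ᵀ * (A : Matrix (Fin n) (Fin n) F).map σ) = 1 := by
      refine Matrix.ext_of_mulVec_single fun j => ?_
      refine dotProduct_eq _ _ fun u => ?_
      have h4 := h u (Pi.single j 1)
      rw [hkey, hform] at h4
      have h5 : (fun i => σ ((Pi.single j 1 : Fin n → F) i)) = Pi.single j 1 := by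
        funext i
        by_cases hi : i = j
        · subst hi
          rw [Pi.single_eq_same, map_one]
        · rw [Pi.single_eq_of_ne hi, map_zero]
      rw [h5] at h4
      rw [one_mulVec, dotProduct_comm _ u, h4, dotProduct_comm _ u]
    rw [h3, transpose_one]
  · intro h u v
    have h3 : ((A : Matrix (Fin n) (Fin n) F)ᵀ * (A : Matrix (Fin n) (Fin n) F).map σ) = 1 := by
      rw [← transpose_transpose ((A : Matrix (Fin n) (Fin n) F)ᵀ * (A : Matrix (Fin n) (Fin n) F).map σ), h, transpose_one]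
    rw [hkey, h3, one_mulVec, hform]

end conj

/-- **The linear lift of `PSU_n(q)`.** -/
theorem exists_linU {F : Type*} [Field F] [Finite F] {n q : ℕ} (hF : Nat.card F = q ^ 2) (hn : 3 ≤ n) {G : Type*}
    [Group G] (e : G ≃* Cfsg.PSU n F q) :
    ∃ (σ : F ≃+* F) (ad : Module.End F (Fin n → F) → Module.End F (Fin n → F))
      (Gh : Subgroup ((Fin n → F) ≃ₗ[F] (Fin n → F))) (π : ↥Gh →* G), (∀ c, σ c = c ^ q) ∧ (∀ c, σ (σ c) = c) ∧ Star σ ad ∧
      (∀ T, LinearMap.det (ad T) = σ (LinearMap.det T)) ∧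
      (∀ g : (Fin n → F) ≃ₗ[F] (Fin n → F), g ∈ Gh ↔ ((g : (Fin n → F) →ₗ[F] (Fin n → F)) *
        ad (g : (Fin n → F) →ₗ[F] (Fin n → F)) = 1 ∧ LinearMap.det (g : (Fin n → F) →ₗ[F] (Fin n → F)) = 1)) ∧
      Lin Gh π := by
  classical
  have := Fintype.ofFinite F
  obtain ⟨σ, hσ⟩ := exists_sigma hF
  rw [Nat.card_eq_fintype_card] at hF
  have h22 : ∀ a, σ (σ a) = a := fun a => by rw [hσ, hσ, ← pow_mul, ← sq, ← hF, FiniteField.pow_card]
  have hmat : ∀ A : Matrix (Fin n) (Fin n) F, hc σ A * A = 1 → A * hc σ A = 1 := fun A h => mul_eq_one_comm.1 h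
  let φ : ↥(Cfsg.SU n F q) →* ↥(suV σ h22 n) :=
    ((SpecialLinearGroup.toLin' : SpecialLinearGroup (Fin n) F →* _).comp (Cfsg.SU n F q).subtype).codRestrict
      (suV σ h22 n) fun A => by
      have h1 : ((SpecialLinearGroup.toLin' (A : SpecialLinearGroup (Fin n) F) : (Fin n → F) ≃ₗ[F] (Fin n → F)) :
          (Fin n → F) →ₗ[F] (Fin n → F)) = toLin' ((A : SpecialLinearGroup (Fin n) F) : Matrix (Fin n) (Fin n) F) := rfl
      change SpecialLinearGroup.toLin' (A : SpecialLinearGroup (Fin n) F) ∈ suV σ h22 n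
      rw [mem_suV, h1, adU_toLin', toLin'_mul', hmat _ ((mem_SU_hc σ hσ _).1 A.2), LinearMap.det_toLin']
      exact ⟨toLin'_one, (A : SpecialLinearGroup (Fin n) F).2⟩
  have hφ : ∀ A : ↥(Cfsg.SU n F q), ((φ A : (Fin n → F) ≃ₗ[F] (Fin n → F)) : (Fin n → F) →ₗ[F] (Fin n → F)) =
      toLin' ((A : SpecialLinearGroup (Fin n) F) : Matrix (Fin n) (Fin n) F) := fun A => rfl
  have hbij : Function.Bijective φ := by
    constructor
    · intro A B h
      refine Subtype.ext (Subtype.ext (toLin'.injective ?_))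
      rw [← hφ, ← hφ, h]
    · rintro ⟨g, hg⟩
      have hg' := (mem_suV σ).1 hg
      obtain ⟨A, hA⟩ := toLin'.surjective (g : (Fin n → F) →ₗ[F] (Fin n → F))
      rw [← hA, adU_toLin', toLin'_mul', LinearMap.det_toLin'] at hg'
      have h3 : A * hc σ A = 1 := toLin'.injective (hg'.1.trans toLin'_one.symm)
      let B : SpecialLinearGroup (Fin n) F := ⟨A, hg'.2⟩
      have hB : B ∈ Cfsg.SU n F q := (mem_SU_hc σ hσ B).2 (mul_eq_one_comm.1 h3)
      exact ⟨⟨B, hB⟩, Subtype.ext (LinearEquiv.toLinearMap_injective ((hφ ⟨B, hB⟩).trans hA))⟩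
  let Φ : ↥(Cfsg.SU n F q) ≃* ↥(suV σ h22 n) := MulEquiv.ofBijective φ hbij
  refine ⟨σ, adU σ, suV σ h22 n, (e.symm.toMonoidHom.comp (QuotientGroup.mk' (center (Cfsg.SU n F q)))).comp
    Φ.symm.toMonoidHom, hσ, h22, star_adU σ h22, det_adU σ, fun g => mem_suV σ, ?_, ?_⟩
  · intro g
    obtain ⟨A, hA⟩ := QuotientGroup.mk'_surjective _ (e g)
    refine ⟨Φ A, ?_⟩
    change e.symm (QuotientGroup.mk' _ (Φ.symm (Φ A))) = g
    rw [MulEquiv.symm_apply_apply, hA, MulEquiv.symm_apply_apply]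
  · intro g
    obtain ⟨A, rfl⟩ := Φ.surjective g
    have h1 : ((e.symm.toMonoidHom.comp (QuotientGroup.mk' (center (Cfsg.SU n F q)))).comp Φ.symm.toMonoidHom)
        (Φ A) = e.symm (QuotientGroup.mk' _ A) := by
      change e.symm (QuotientGroup.mk' _ (Φ.symm (Φ A))) = _
      rw [MulEquiv.symm_apply_apply]
    rw [h1, EmbeddingLike.map_eq_one_iff, ← MonoidHom.mem_ker, QuotientGroup.ker_mk',
      Cfsg.Agent.LieClassical.SUBasic.mem_center_SU_iff hF hn]
    constructor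
    · rintro ⟨c, hcn, hcq, rfl⟩
      refine ⟨c, fun v => ?_⟩
      change (Matrix.diagonal (fun _ => c) : Matrix (Fin n) (Fin n) F).mulVec v = c • v
      rw [← Matrix.smul_one_eq_diagonal, Matrix.smul_mulVec, Matrix.one_mulVec]
    · rintro ⟨c, hc'⟩
      have hc2 : ∀ v, ((A : SpecialLinearGroup (Fin n) F) : Matrix (Fin n) (Fin n) F).mulVec v = c • v := hc'
      have h2 : ((A : SpecialLinearGroup (Fin n) F) : Matrix (Fin n) (Fin n) F) = Matrix.diagonal (fun _ => c) := by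
        refine Matrix.ext_of_mulVec_single fun i => ?_
        rw [hc2, ← Matrix.smul_one_eq_diagonal, Matrix.smul_mulVec, Matrix.one_mulVec]
      have h3 : c ^ n = 1 := by
        have h4 := (A : SpecialLinearGroup (Fin n) F).2
        rw [h2, Matrix.det_diagonal, Finset.prod_const, Finset.card_univ, Fintype.card_fin] at h4
        exact h4
      have h5 : c ^ (q + 1) = 1 := by
        have h4 := (mem_SU_hc σ hσ _).1 A.2
        have h6 := congrFun (congrFun h4 ⟨0, by omega⟩) ⟨0, by omega⟩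
        rw [h2, mul_diagonal, one_apply_eq] at h6
        have h7 : hc σ (Matrix.diagonal (fun _ => c) : Matrix (Fin n) (Fin n) F) ⟨0, by omega⟩ ⟨0, by omega⟩ = σ c := by
          change σ (Matrix.diagonal (fun _ => c) (⟨0, by omega⟩ : Fin n) ⟨0, by omega⟩) = σ c
          rw [Matrix.diagonal_apply_eq]
        rw [h7, hσ, ← pow_succ] at h6
        exact h6
      exact ⟨c, h3, h5, Subtype.ext (Subtype.ext h2)⟩

end Cfsg.Agent.H601.C3
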