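import Cfsg.Agent.H415.C3.KitOf
import Cfsg.Agent.H415.C3.Lift
import Cfsg.Agent.H375.C3.PSUFalse
import Cfsg.Agent.H330.C3.KillU
import Cfsg.Agent.H601.C3.DetPhi
import Cfsg.Agent.H601.C3.LinPSU
import Cfsg.Agent.H601.C3.Dec
import Cfsg.Agent.H527.Co3.Asm
import Cfsg.Prelude.Def_LieTypeChar

/-!
# S1920, case B: the row `PSU_n(q)`, `q` odd (helper601, with helper330, helper375)
-/

set_option autoImplicit false

open Subgroup Module

namespace Cfsg.Agent.H601.C3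

open Cfsg.Agent.H415.C3
open Cfsg.Agent.H13.Co3 (CB)
open Cfsg.Agent.H375.C3 (card_ne psu_false_of)

/-- **`PSU_n(q)`, `q` odd, has no configuration `CB`.** -/
theorem psu_odd {G : Type*} [Group G] [Finite G] {F : Type*} [Field F] [Finite F] (h2 : (2 : F) ≠ 0) {n q : ℕ}
    (hF : Nat.card F = q ^ 2) (hn : 3 ≤ n)
    (e : G ≃* Cfsg.PSU n F q) {P N0 : Subgroup G} {z s : G}
    {ψ : ↥(normalizer (P : Set G)) →* Equiv.Perm (Fin 6)} (C : CB P N0 z s ψ) : False := by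
  obtain ⟨A, E, x, r, φ, Kt⟩ := exists_kit C
  obtain ⟨σ, ad, Gh, π, hσ, hσσ, hS, hdet, hGh, hL⟩ := exists_linU hF hn e
  have hVV : Finite ((Fin n → F) ≃ₗ[F] (Fin n → F)) :=
    Finite.of_injective (fun f : (Fin n → F) ≃ₗ[F] (Fin n → F) => (f : (Fin n → F) → (Fin n → F))) DFunLike.coe_injective
  obtain ⟨Nh, Eh, zh, sh, xh, rh, L⟩ := exists_lkit hL h2 Kt
  have hu : ∀ g ∈ Nh, ad (g : (Fin n → F) →ₗ[F] (Fin n → F)) * (g : (Fin n → F) →ₗ[F] (Fin n → F)) = 1 := by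
    intro g hg
    obtain ⟨hg1, -⟩ := (L.mem_Nh g).1 hg
    have h3 := ((hGh g).1 hg1).1
    exact mul_eq_one_comm.1 h3
  obtain ⟨ι, hι, m, u, φ', hD⟩ := exists_dec hF hσ h2 hS Nh (card_ne h2 Kt hL L) hu L.zN L.z_sq L.z_comm L.comm L.sq
  obtain ⟨d, hd⟩ := det_phi hD
  refine psu_false_of h2 Kt hL L hS hD hGh hF hσ hdet fun i h3 hui _ => ?_
  refine Cfsg.Agent.H330.C3.unitary_three h2 Kt hL L hS hF hσ (exists_ne hF hσ) hσσ
    (fun g h4 h5 => (hGh g).2 ⟨mul_eq_one_comm.1 h4, h5⟩) h3 (hD.mul i) (hD.inj i) (hD.comm i) (hD.star i hui)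
    (d := d i) fun X => ?_
  rw [← hd i X, map_sub]
  congr 1
  abel

universe u

open Cfsg in
/-- **The row `IsPSU`**, from the characteristic 2 case. -/
theorem row_psu_of (H : ∀ (G : Type u) [Group G] [Finite G] [IsSimpleGroup G] (P N0 : Subgroup G) (z s : G)
    (ψ : ↥(normalizer (P : Set G)) →* Equiv.Perm (Fin 6)), CB P N0 z s ψ → IsLieTypeChar 2 G → False) :
    Cfsg.Agent.H527.Co3.Row.{u} @IsPSU := by
  intro G _ _ _ hG P N0 z s ψ C
  obtain ⟨F, hF, hFf, n, q, hc, hn, hn2, ⟨e⟩⟩ := hG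
  by_cases h2 : (2 : F) = 0
  · have hch : CharP F 2 := CharTwo.of_one_ne_zero_of_two_eq_zero one_ne_zero h2
    exact H G P N0 z s ψ C (Or.inr (Or.inr (Or.inl ⟨F, hF, hFf, hch, n, q, hc, hn, hn2, ⟨e⟩⟩)))
  · exact psu_odd h2 (by rw [Nat.card_eq_fintype_card, hc]) hn e C

end Cfsg.Agent.H601.C3
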