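import Mathlib.LinearAlgebra.GeneralLinearGroup.AlgEquiv
import Cfsg.Agent.H601.C3.DecDefs
import Cfsg.Agent.S0755

/-!
# Involutions of the second kind on `M_m(K)`, `K` finite, are standard (helper601, S1920 PSU)
-/

set_option autoImplicit false

open Matrix

namespace Cfsg.Agent.H601.C3

variable {K : Type*} [Field K] {σ : K ≃+* K} {m : ℕ}

theorem hc_apply (X : Matrix (Fin m) (Fin m) K) (i j : Fin m) : hc σ X i j = σ (X j i) := rfl

theorem hc_mul (X Y : Matrix (Fin m) (Fin m) K) : hc σ (X * Y) = hc σ Y * hc σ X := by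
  have h : (X * Y).map σ = X.map σ * Y.map σ := Matrix.map_mul (f := (σ : K →+* K))
  rw [hc, h, transpose_mul]
  rfl

theorem hc_one : hc σ (1 : Matrix (Fin m) (Fin m) K) = 1 := by
  ext i j
  rw [hc_apply, one_apply, one_apply]
  split_ifs with h1 h2 h2
  · exact map_one σ
  · exact absurd h1.symm h2
  · exact absurd h2.symm h1
  · exact map_zero σ

theorem hc_smul (c : K) (X : Matrix (Fin m) (Fin m) K) : hc σ (c • X) = σ c • hc σ X := by
  ext i j
  rw [hc_apply, Matrix.smul_apply, Matrix.smul_apply, hc_apply, smul_eq_mul, smul_eq_mul, map_mul]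

theorem hc_add (X Y : Matrix (Fin m) (Fin m) K) : hc σ (X + Y) = hc σ X + hc σ Y := by
  ext i j
  rw [hc_apply, Matrix.add_apply, Matrix.add_apply, hc_apply, hc_apply, map_add]

theorem hc_hc (h2 : ∀ a, σ (σ a) = a) (X : Matrix (Fin m) (Fin m) K) : hc σ (hc σ X) = X := by
  ext i j
  rw [hc_apply, hc_apply, h2]

/-- Hilbert 90 -/
theorem hilbert {c : K} (h1 : ∃ a, σ a ≠ a) (h2 : ∀ a, σ (σ a) = a) (hc : c * σ c = 1) :
    ∃ d : K, d ≠ 0 ∧ c * σ d = d := by
  by_contra hn
  push Not at hn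
  have key : ∀ x : K, x + c * σ x = 0 := by
    intro x
    by_contra hx
    refine hn _ hx ?_
    rw [map_add, map_mul, h2, mul_add, ← mul_assoc, hc, one_mul, add_comm]
  obtain ⟨a, ha⟩ := h1
  have e1 := key 1
  rw [map_one, mul_one] at e1
  have e2 : c = -1 := (neg_eq_of_add_eq_zero_right e1).symm
  have e3 := key a
  rw [e2, neg_one_mul, ← sub_eq_add_neg, sub_eq_zero] at e3
  exact ha e3.symm

/-- the form of a hermitian matrix -/
noncomputable def hform (σ : K ≃+* K) (A : Matrix (Fin m) (Fin m) K) :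
    (Fin m → K) →ₛₗ[(σ : K →+* K)] (Fin m → K) →ₗ[K] K :=
  LinearMap.mk₂'ₛₗ (σ : K →+* K) (RingHom.id K) (fun x y => dotProduct (fun i => σ (x i)) (A.mulVec y))
    (fun x x' y => by
      rw [← add_dotProduct]
      congr 1
      funext i
      exact map_add σ _ _)
    (fun c x y => by
      rw [← smul_dotProduct]
      congr 1
      funext i
      exact map_mul σ _ _)
    (fun x y y' => by rw [mulVec_add, dotProduct_add])
    (fun c x y => by rw [mulVec_smul, dotProduct_smul]; rfl)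

theorem hform_apply (A : Matrix (Fin m) (Fin m) K) (x y : Fin m → K) :
    hform σ A x y = dotProduct (fun i => σ (x i)) (A.mulVec y) := rfl

theorem hform_eq (A : Matrix (Fin m) (Fin m) K) (x y : Fin m → K) :
    hform σ A x y = ∑ i, ∑ j, σ (x i) * A i j * y j := by
  rw [hform_apply, dotProduct]
  refine Finset.sum_congr rfl fun i _ => ?_
  rw [mulVec, dotProduct, Finset.mul_sum]
  exact Finset.sum_congr rfl fun j _ => (mul_assoc _ _ _).symm

/-- `P† P` -/
theorem exists_sqrt [Finite K] (h1 : ∃ a, σ a ≠ a) (h2 : ∀ a, σ (σ a) = a) {A B : Matrix (Fin m) (Fin m) K}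
    (hA : hc σ A = A) (hAB : B * A = 1) : ∃ P Q : Matrix (Fin m) (Fin m) K, P * Q = 1 ∧ Q * P = 1 ∧
      A = hc σ P * P := by
  have hsym : ∀ x y, σ (hform σ A x y) = hform σ A y x := by
    intro x y
    rw [hform_eq, hform_eq, map_sum, Finset.sum_comm]
    refine Finset.sum_congr rfl fun j _ => ?_
    rw [map_sum]
    refine Finset.sum_congr rfl fun i _ => ?_
    have h3 : A j i = σ (A i j) := by
      conv_lhs => rw [← hA]
      rfl
    rw [map_mul, map_mul, h2, h3, h2]
    ring
  have hr : ∀ y, (∀ x, hform σ A x y = 0) → y = 0 := by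
    intro y hy
    have h3 : A.mulVec y = 0 := by
      funext i
      have h4 := hy (Pi.single i 1)
      rw [hform_apply] at h4
      have h5 : (fun j => σ ((Pi.single i 1 : Fin m → K) j)) = Pi.single i 1 := by
        funext j
        by_cases hj : j = i
        · subst hj
          rw [Pi.single_eq_same, map_one]
        · rw [Pi.single_eq_of_ne hj, map_zero]
      rw [h5, single_one_dotProduct] at h4
      exact h4
    have h6 : (B * A).mulVec y = 0 := by rw [← mulVec_mulVec, h3, mulVec_zero]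
    rwa [hAB, one_mulVec] at h6
  have hnd : (hform σ A).Nondegenerate := by
    constructor
    · intro x hx
      refine hr x fun y => ?_
      rw [← hsym, hx, map_zero]
    · exact fun y hy => hr y hy
  obtain ⟨b, hb⟩ := S0755.result (σ : K →+* K) (fun h => by
    obtain ⟨a, ha⟩ := h1
    exact ha (RingHom.congr_fun h a)) h2 (hform σ A) ⟨hsym⟩ hnd
  have hfin : Module.finrank K (Fin m → K) = m := by rw [Module.finrank_fintype_fun_eq_card, Fintype.card_fin]
  let b' := b.reindex (finCongr hfin)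
  have hb' : ∀ i j, hform σ A (b' i) (b' j) = if i = j then 1 else 0 := by
    intro i j
    rw [Module.Basis.reindex_apply, Module.Basis.reindex_apply, hb]
    exact if_congr (finCongr hfin).symm.injective.eq_iff rfl rfl
  let Q : Matrix (Fin m) (Fin m) K := Matrix.of fun i j => b' j i
  have hQ : hc σ Q * A * Q = 1 := by
    ext i j
    have h3 := hb' i j
    rw [hform_eq] at h3
    rw [one_apply, ← h3, mul_apply]
    rw [Finset.sum_comm]
    refine Finset.sum_congr rfl fun l _ => ?_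
    rw [mul_apply, Finset.sum_mul]
    rfl
  have hu : IsUnit Q := by
    refine (isUnit_iff_isUnit_det Q).2 (isUnit_iff_ne_zero.2 fun h0 => ?_)
    have h3 := congrArg det hQ
    rw [det_mul, h0, mul_zero, det_one] at h3
    exact zero_ne_one h3
  obtain ⟨P, hPQ, hQP⟩ : ∃ P, P * Q = 1 ∧ Q * P = 1 := ⟨_, hu.val_inv_mul, hu.mul_val_inv⟩
  refine ⟨P, Q, hPQ, hQP, ?_⟩
  have h4 : hc σ P * hc σ Q = 1 := by rw [← hc_mul, hQP, hc_one]
  calc A = (hc σ P * hc σ Q) * A * (Q * P) := by rw [h4, hQP, one_mul, mul_one]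
    _ = hc σ P * (hc σ Q * A * Q) * P := by simp only [mul_assoc]
    _ = hc σ P * P := by rw [hQ, mul_one]

/-- a matrix commuting with all matrices is a scalar -/
theorem scalar_of_central {c : Matrix (Fin m) (Fin m) K} (h : ∀ X, c * X = X * c) : ∃ a : K, c = a • 1 := by
  have h1 : c ∈ Set.range (Matrix.scalar (Fin m) : K →+* _) := by
    rw [Matrix.mem_range_scalar_iff_commute_single']
    intro i j
    exact (h _).symm
  obtain ⟨a, ha⟩ := h1
  exact ⟨a, by rw [← ha, smul_one_eq_diagonal]; rfl⟩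

/-- **involutions of the second kind are standard** -/
theorem std [Finite K] (h1 : ∃ a, σ a ≠ a) (h2 : ∀ a, σ (σ a) = a)
    (st : Matrix (Fin m) (Fin m) K → Matrix (Fin m) (Fin m) K)
    (hadd : ∀ X Y, st (X + Y) = st X + st Y) (hsm : ∀ (c : K) X, st (c • X) = σ c • st X)
    (hmul : ∀ X Y, st (X * Y) = st Y * st X) (hinv : ∀ X, st (st X) = X) :
    ∃ P Q : Matrix (Fin m) (Fin m) K, P * Q = 1 ∧ Q * P = 1 ∧ ∀ Y, st (Q * Y * P) = Q * hc σ Y * P := by
  rcases Nat.eq_zero_or_pos m with rfl | hm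
  · exact ⟨1, 1, Subsingleton.elim _ _, Subsingleton.elim _ _, fun _ => Subsingleton.elim _ _⟩
  have hne : NeZero m := ⟨hm.ne'⟩
  have hone : st 1 = 1 := by
    have h3 : st 1 * st (st 1) = st (st 1) := by rw [← hmul, mul_one]
    rw [hinv, mul_one] at h3
    exact h3
  -- the automorphism `X ↦ (st X)†`
  let f : Matrix (Fin m) (Fin m) K →ₐ[K] Matrix (Fin m) (Fin m) K :=
    { toFun := fun X => hc σ (st X)
      map_one' := by rw [hone, hc_one]
      map_mul' := fun X Y => by rw [hmul, hc_mul]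
      map_zero' := by
        have h3 := hadd 0 0
        rw [add_zero] at h3
        rw [left_eq_add.1 h3]
        have h4 := hc_smul (σ := σ) 0 (0 : Matrix (Fin m) (Fin m) K)
        rwa [map_zero, zero_smul, zero_smul] at h4
      map_add' := fun X Y => by rw [hadd, hc_add]
      commutes' := fun c => by
        rw [Algebra.algebraMap_eq_smul_one, hsm, hc_smul, h2, hone, hc_one] }
  have hf : ∀ X, f X = hc σ (st X) := fun X => rfl
  have hfb : Function.Bijective f := by
    refine Function.bijective_iff_has_inverse.2 ⟨fun X => st (hc σ X), fun X => ?_, fun X => ?_⟩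
    · change st (hc σ (hc σ (st X))) = X
      rw [hc_hc h2, hinv]
    · change hc σ (st (st (hc σ X))) = X
      rw [hinv, hc_hc h2]
  let g : Module.End K (Fin m → K) ≃ₐ[K] Module.End K (Fin m → K) :=
    (toLinAlgEquiv'.symm.trans (AlgEquiv.ofBijective f hfb)).trans toLinAlgEquiv'
  obtain ⟨T, hT⟩ := g.eq_linearEquivConjAlgEquiv
  obtain ⟨H, hH⟩ : ∃ H, H = LinearMap.toMatrix' (T : (Fin m → K) →ₗ[K] (Fin m → K)) := ⟨_, rfl⟩
  obtain ⟨H', hH'⟩ : ∃ H', H' = LinearMap.toMatrix' (T.symm : (Fin m → K) →ₗ[K] (Fin m → K)) := ⟨_, rfl⟩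
  have e1 : H * H' = 1 := by
    rw [hH, hH', ← LinearMap.toMatrix'_comp, LinearEquiv.comp_coe, LinearEquiv.symm_trans_self]
    exact LinearMap.toMatrix'_id
  have e2 : H' * H = 1 := by
    rw [hH, hH', ← LinearMap.toMatrix'_comp, LinearEquiv.comp_coe, LinearEquiv.self_trans_symm]
    exact LinearMap.toMatrix'_id
  have e3 : ∀ X, hc σ (st X) = H * X * H' := by
    intro X
    have h3 := AlgEquiv.congr_fun hT (toLin' X)
    have h4 : LinearMap.toMatrix' (g (toLin' X)) = hc σ (st X) := by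
      change LinearMap.toMatrix' (toLin' (f (LinearMap.toMatrix' (toLin' X)))) = _
      rw [LinearMap.toMatrix'_toLin', LinearMap.toMatrix'_toLin', hf]
    rw [← h4, h3, hH, hH', LinearEquiv.conjAlgEquiv_apply, LinearMap.toMatrix'_comp, LinearMap.toMatrix'_comp,
      LinearMap.toMatrix'_toLin', mul_assoc]
  -- `st X = A⁻¹ X† A`
  obtain ⟨A, hAd⟩ : ∃ A, A = hc σ H := ⟨_, rfl⟩
  obtain ⟨A', hAd'⟩ : ∃ A', A' = hc σ H' := ⟨_, rfl⟩
  have a1 : A' * A = 1 := by rw [hAd, hAd', ← hc_mul, e1, hc_one]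
  have a2 : A * A' = 1 := by rw [hAd, hAd', ← hc_mul, e2, hc_one]
  have e4 : ∀ X, st X = A' * hc σ X * A := by
    intro X
    rw [← hc_hc h2 (st X), e3, hc_mul, hc_mul, hAd, hAd', mul_assoc]
  -- `A† = c A`
  obtain ⟨c, hcA⟩ : ∃ c : K, A' * hc σ A = c • 1 := by
    refine scalar_of_central fun X => ?_
    have h3 := hinv X
    rw [e4 (st X), e4 X, hc_mul, hc_mul, hc_hc h2] at h3
    have h4 : hc σ A' * A * (A' * hc σ A) = 1 := by
      rw [mul_assoc, ← mul_assoc A, a2, one_mul, ← hc_mul]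
      have : A * A' = 1 := a2
      rw [this, hc_one]
    calc A' * hc σ A * X = A' * hc σ A * X * (hc σ A' * A * (A' * hc σ A)) := by rw [h4, mul_one]
      _ = A' * (hc σ A * (X * hc σ A')) * A * (A' * hc σ A) := by simp only [mul_assoc]
      _ = X * (A' * hc σ A) := by rw [h3]
  have e5 : hc σ A = c • A := by
    have h3 := congrArg (fun Y => A * Y) hcA
    simp only [← mul_assoc, a2, one_mul, mul_smul_comm, mul_one] at h3
    exact h3
  have hA0 : A ≠ 0 := by
    intro h0
    rw [h0, mul_zero] at a1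
    exact zero_ne_one a1
  have e6 : c * σ c = 1 := by
    have h3 : A = (σ c * c) • A := by
      conv_lhs => rw [← hc_hc h2 A, e5, hc_smul, e5, smul_smul]
    have h4 : (σ c * c - 1) • A = 0 := by rw [sub_smul, ← h3, one_smul, sub_self]
    rcases smul_eq_zero.1 h4 with h5 | h5
    · rw [mul_comm]
      exact sub_eq_zero.1 h5
    · exact absurd h5 hA0
  obtain ⟨d, hd0, hd⟩ := hilbert h1 h2 e6
  have e7 : hc σ (d • A) = d • A := by rw [hc_smul, e5, smul_smul, mul_comm, hd]
  obtain ⟨P, Q, hPQ, hQP, hP⟩ := exists_sqrt (A := d • A) (B := d⁻¹ • A') h1 h2 e7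
    (by rw [smul_mul_smul_comm, inv_mul_cancel₀ hd0, a1, one_smul])
  refine ⟨P, Q, hPQ, hQP, fun Y => ?_⟩
  have e8 : ∀ X, st X = (d⁻¹ • A') * hc σ X * (d • A) := by
    intro X
    rw [e4, smul_mul_assoc, smul_mul_assoc, mul_smul_comm, smul_smul, inv_mul_cancel₀ hd0, one_smul]
  have e9 : d⁻¹ • A' = Q * hc σ Q := by
    have h3 : (Q * hc σ Q) * (d • A) = 1 := by
      rw [hP]
      have : hc σ Q * hc σ P = 1 := by rw [← hc_mul, hPQ, hc_one]
      calc Q * hc σ Q * (hc σ P * P) = Q * (hc σ Q * hc σ P) * P := by simp only [mul_assoc]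
        _ = 1 := by rw [this, mul_one, hQP]
    have h4 : (d • A) * (d⁻¹ • A') = 1 := by
      rw [smul_mul_smul_comm, mul_inv_cancel₀ hd0, a2, one_smul]
    calc d⁻¹ • A' = (Q * hc σ Q) * (d • A) * (d⁻¹ • A') := by rw [h3, one_mul]
      _ = Q * hc σ Q := by rw [mul_assoc, h4, mul_one]
  rw [e8, e9, hP, hc_mul, hc_mul]
  have h5 : hc σ Q * hc σ P = 1 := by rw [← hc_mul, hPQ, hc_one]
  calc Q * hc σ Q * (hc σ P * (hc σ Y * hc σ Q)) * (hc σ P * P)
      = Q * (hc σ Q * hc σ P) * hc σ Y * (hc σ Q * hc σ P) * P := by simp only [mul_assoc]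
    _ = Q * hc σ Y * P := by rw [h5, mul_one, mul_one]

end Cfsg.Agent.H601.C3
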